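import Cfsg.Agent.CGT.DceMul

set_option autoImplicit false
set_option Elab.async false
set_option maxRecDepth 100000
set_option linter.all false

namespace Cfsg.Agent.JTJ
open Cfsg.Agent.CGT

noncomputable def RR : List (List ℕ) := [[0, 0], [6, 6], [8, 8], [10, 10], [12, 12], [14, 14], [2, 2, 2, 2, 2], [4, 4, 4], [3, 4, 3, 4, 3, 4], [2, 4, 2, 4, 2, 4, 2, 4, 2, 4], [2, 2, 4, 2, 2, 4], [0, 4, 0, 5], [6, 4, 6, 5], [0, 6, 0, 6, 0, 6, 0, 6], [0, 2, 0, 2, 0, 2, 0, 2, 0, 2], [8, 2, 8, 3], [2, 0, 3, 6], [0, 6, 0, 6, 8], [2, 5, 2, 2, 10], [6, 10, 6, 12], [2, 4, 3, 5, 2, 14], [14, 0, 14, 6], [14, 4, 14, 4], [8, 0, 8, 0], [8, 6, 8, 6], [8, 4, 8, 5], [14, 8, 14, 8], [16, 16, 16], [16, 4, 17, 5], [6, 16, 6, 16], [16, 10, 17, 4, 10, 5], [16, 8, 17, 0], [16, 0, 17, 0, 8], [18, 18], [18, 16, 18, 16], [18, 16, 4, 18, 5, 17],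 [18, 8, 18, 10], [18, 0, 18, 5, 10, 4], [18, 12, 18, 12, 18, 12], [20, 20], [18, 6, 18, 6, 18, 20], [20, 4, 20, 5], [20, 16, 20, 16], [20, 0, 20, 0, 20, 0, 20, 0, 20, 0], [20, 8, 20, 8, 20, 8], [20, 8, 0, 20, 8, 0, 20, 8, 0, 20, 8, 0, 20, 8, 0], [20, 6, 20, 6, 20, 6], [14, 16, 14, 0, 20, 0, 6, 0, 20]]

end Cfsg.Agent.JTJ
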