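import Cfsg.Agent.JTJ.L0_0
import Cfsg.Agent.JTJ.L0_1

set_option autoImplicit false
set_option Elab.async false
set_option maxRecDepth 100000
set_option linter.all false

namespace Cfsg.Agent.JTJ
open Cfsg.Agent.CGT

theorem l0_g : l0_S.goals l0_W 44359 = true := by decide +kernel
theorem l0_mem {G : Type*} [Group G] {γ : ℕ → G} (hR : Holds (ext γ) l0_R) {H : Subgroup G}
    (hS : ∀ u ∈ l0_S0, ev (ext γ) u ∈ H) : ∀ u ∈ l0_W, ev (ext γ) u ∈ H :=
  have hy := STC.hypOK_sound hR hS l0_h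
  STC.Upto.goals ((((((((((((((((STC.upto_zero).step hy l0_c0).step hy l0_c1).step hy l0_c2).step hy l0_c3).step hy l0_c4).step hy l0_c5).step hy l0_c6).step hy l0_c7).step hy l0_c8).step hy l0_c9).step hy l0_c10).step hy l0_c11).step hy l0_c12).step hy l0_c13).step hy l0_c14) l0_g
theorem l0_p : Holds (lp l0_ns) l0_R := ((holdsB_sound l0_v l0_p0).append (holdsB_sound l0_v l0_p1))
theorem l0_fin {G : Type*} [Group G] {γ : ℕ → G} (hR : Holds (ext γ) l0_R) {H : Subgroup G}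
    (hS : ∀ u ∈ l0_S0, ev (ext γ) u ∈ H) : l0_E.Fin γ H 23256 [0, 2, 4, 6, 8, 10, 12, 14, 16, 18, 20] :=
  have hy : l0_E.Hyp γ H := Enum.hyp_of l0_v hR l0_p (forall_mem_append' hS (l0_mem hR hS)) l0_f
  (Enum.fin_of_done hy (Enum.run_to hy (Enum.run_to hy (Enum.run_to hy (Enum.run_to hy (Enum.run_to hy (Enum.run_to hy (Enum.run_to hy (Enum.run_to hy (Enum.run_to hy (Enum.run_to hy (Enum.run_to hy (Enum.run_to hy (Enum.run_to hy (Enum.run_to hy (Enum.run_to hy (Enum.run_to hy (Enum.run_to hy (Enum.run_to hy (Enum.run_to hy (Enum.run_to hy (Enum.run_to hy (Enum.run_to hy (Enum.run_to hy (Enum.run_to hy (Enum.run_to hy (Enum.run_to hy (Enum.run_to hy (Enum.run_to hy (Enum.run_to hy (Enum.run_to hy (Enum.run_to hy (Enum.inv_init 22) l0_r0) l0_r1) l0_r2) l0_r3) l0_r4) l0_r5) l0_r6) l0_r7) l0_r8) l0_r9) l0_r10) l0_r11) l0_r12) l0_r13) l0_r14) l0_r15) l0_r16) l0_r17) l0_r18) l0_r19) l0_r20) l0_r21) l0_r22) l0_r23)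 l0_r24) l0_r25) l0_r26) l0_r27) l0_r28) l0_r29) l0_r30) l0_r31)

end Cfsg.Agent.JTJ
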